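import Cfsg.Agent.H55.L33X
import Cfsg.Agent.H43.L33Y

set_option autoImplicit false
set_option maxHeartbeats 1000000

/-! S3668, piece L33: the character data of a simple group of order 5616
(the proof of `H55.L33.data` with two more clauses). -/

namespace Cfsg.Agent.C2Ab.L33D

open scoped ComplexConjugate BigOperators
open Cfsg Cfsg.Agent Cfsg.Agent.CharBase Cfsg.Agent.Char
open Cfsg.Agent.SuzDeg Cfsg.Agent.H55.L33 Cfsg.Agent.H43.L33Y

universe u

variable {G : Type u} [Group G] [Finite G]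

theorem data [IsSimpleGroup G] (hG : Nat.card G = 5616) : ∃ χ ψ θ : IrrCharacter G, YD χ ψ θ := by
  classical
  letI : Fintype G := Fintype.ofFinite G
  have : Fintype (IrrCharacter G) := Fintype.ofFinite _
  have hp13 : Fact (Nat.Prime 13) := ⟨by norm_num⟩
  obtain ⟨T, E, χ, ψ, hTc, hT, hE4, h1E, hχE, hψE, hχ1, hψ1, hχψ, dχ, dψ, dE, hnon, vχ, vψ, vz⟩ := pre hG
  obtain ⟨x, hxT, hx1⟩ : ∃ y ∈ T, y ≠ 1 := by
    have : Nontrivial T := by
      rw [← Finite.one_lt_card_iff_nontrivial, hTc]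
      norm_num
    obtain ⟨y, hy⟩ := exists_ne (1 : T)
    exact ⟨y, y.2, fun h => hy (Subtype.ext h)⟩
  have hx13 : orderOf x = 13 := H17.orderOf_eq_of_mem_of_card_prime hTc hxT hx1
  -- the splitting of a sum
  have hsplit : ∀ f : IrrCharacter G → ℂ, ∑ ζ, f ζ * conj ((ζ : G → ℂ) x) = f (oneIrr G) - f χ + f ψ + ∑ ζ ∈ E, f ζ * conj ((ζ : G → ℂ) x) := by
    intro f
    have h1 : ∀ A B : Finset (IrrCharacter G), Disjoint A B → (∀ ζ, ζ ∉ A → ζ ∉ B → f ζ * conj ((ζ : G → ℂ) x) = 0) →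
        ∑ ζ, f ζ * conj ((ζ : G → ℂ) x) = ∑ ζ ∈ A, f ζ * conj ((ζ : G → ℂ) x) + ∑ ζ ∈ B, f ζ * conj ((ζ : G → ℂ) x) := by
      intro A B hAB hz
      rw [← Finset.sum_union hAB]
      symm
      apply Finset.sum_subset (Finset.subset_univ _)
      intro ζ _ hζ
      rw [Finset.mem_union, not_or] at hζ
      exact hz ζ hζ.1 hζ.2
    rw [h1 {oneIrr G, χ, ψ} E ?_ ?_]
    · congr 1
      rw [Finset.sum_insert (by simp [hχ1.symm, hψ1.symm]), Finset.sum_insert (by simp [hχψ]), Finset.sum_singleton, oneIrr_apply,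
        vχ x hxT hx1, vψ x hxT hx1]
      simp
      ring
    · rw [Finset.disjoint_left]
      intro ζ hζ
      simp only [Finset.mem_insert, Finset.mem_singleton] at hζ
      rcases hζ with rfl | rfl | rfl
      · exact h1E
      · exact hχE
      · exact hψE
    · intro ζ h2 h3
      simp only [Finset.mem_insert, Finset.mem_singleton, not_or] at h2
      rw [vz ζ h3 h2.1 h2.2.1 h2.2.2 x hxT hx1]
      simp
  have hnc : ∀ g : G, orderOf g ≠ 13 → ¬ IsConj g x := by
    intro g hg h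
    obtain ⟨t, ht⟩ := isConj_iff.1 h
    apply hg
    rw [← hx13, ← ht]
    exact (MulEquiv.orderOf_eq (MulAut.conj t) g).symm
  have hS : ∑ ζ ∈ E, conj ((ζ : G → ℂ) x) = -1 := by
    have h1 := column_orthogonality_of_not_isConj (hnc 1 (by rw [orderOf_one]; norm_num))
    rw [hsplit (fun ζ => (ζ : G → ℂ) 1)] at h1
    simp only [dg_spec, dχ, dψ, dg_one] at h1
    rw [Finset.sum_congr rfl (fun ζ hζ => by rw [dE ζ hζ]), ← Finset.mul_sum] at h1
    push_cast at h1
    linear_combination h1 / 16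
  obtain ⟨θ, hθ⟩ : ∃ e, e ∈ E := by
    have : E.Nonempty := by rw [← Finset.card_pos]; omega
    exact this
  have hag : ∀ g : G, orderOf g ≠ 13 → ∀ ζ ∈ E, (ζ : G → ℂ) g = (θ : G → ℂ) g := by
    intro g hg ζ hζ
    by_cases hg1 : g = 1
    · rw [hg1, dg_spec, dg_spec, dE ζ hζ, dE θ hθ]
    · refine agree hT ?_ (hnon ζ hζ) (hnon θ hθ)
      intro t ht
      have h1 : t⁻¹ * g * t ≠ 1 := by
        intro h
        apply hg1
        calc g = t * (t⁻¹ * g * t) * t⁻¹ := by group
          _ = 1 := by rw [h]; group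
      have h2 := H17.orderOf_eq_of_mem_of_card_prime hTc ht h1
      apply hg
      rw [← h2]
      have h3 := MulEquiv.orderOf_eq (MulAut.conj t⁻¹) g
      rw [MulAut.conj_apply, inv_inv] at h3
      exact h3.symm
  refine ⟨χ, ψ, θ, hG, by rw [dg_spec, dχ]; norm_num, by rw [dg_spec, dψ]; norm_num, by rw [dg_spec, dE θ hθ]; norm_num, ?_, ?_, ?_, ?_, ?_, ?_, ?_⟩
  · intro g hg
    have h1 := column_orthogonality_of_not_isConj (hnc g hg)
    rw [hsplit (fun ζ => (ζ : G → ℂ) g)] at h1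
    rw [Finset.sum_congr rfl (fun ζ hζ => by rw [hag g hg ζ hζ]), ← Finset.mul_sum, hS, oneIrr_apply] at h1
    linear_combination h1
  · intro g hg
    rw [← SuzDeg.sum_norm_sq g]
    have h1 : ∑ ζ ∈ ({oneIrr G, χ, ψ} : Finset (IrrCharacter G)) ∪ E, ‖(ζ : G → ℂ) g‖ ^ 2 ≤ ∑ ζ : IrrCharacter G, ‖(ζ : G → ℂ) g‖ ^ 2 :=
      Finset.sum_le_sum_of_subset_of_nonneg (Finset.subset_univ _) (fun ζ _ _ => by positivity)
    rw [Finset.sum_union, Finset.sum_insert (by simp [hχ1.symm, hψ1.symm]), Finset.sum_insert (by simp [hχψ]), Finset.sum_singleton,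
      oneIrr_apply, Finset.sum_congr rfl (fun ζ hζ => by rw [hag g hg ζ hζ]), Finset.sum_const, hE4, nsmul_eq_mul] at h1
    · simp only [norm_one, one_pow] at h1
      push_cast at h1
      linarith
    · rw [Finset.disjoint_left]
      intro ζ hζ
      simp only [Finset.mem_insert, Finset.mem_singleton] at hζ
      rcases hζ with rfl | rfl | rfl
      · exact h1E
      · exact hχE
      · exact hψE
  · intro g hg
    exact Char.DZ.eq_zero_of_defect_zero 3 3 (by norm_num) (by rw [hG]; norm_num) ψ.2 (dg_spec ψ) (by rw [dψ]; norm_num) g hg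
  · intro g hg
    exact Char.DZ.eq_zero_of_defect_zero 2 4 (by norm_num) (by rw [hG]; norm_num) θ.2 (dg_spec θ) (by rw [dE θ hθ]; norm_num) g hg
  · intro g h hg1 hh1 hg hh
    obtain ⟨n, hn⟩ := dvd_pairs hTc (fun y hy hy1 => hT.cent y hy hy1) hxT hx1 hg1 hg (h := h)
    refine ⟨n, ?_⟩
    have h1 := class_const g h x
    rw [hn, hG] at h1
    have h2 : ∑ ζ : IrrCharacter G, (ζ : G → ℂ) g * (ζ : G → ℂ) h * conj ((ζ : G → ℂ) x) / (ζ : G → ℂ) 1 =
        ∑ ζ : IrrCharacter G, ((ζ : G → ℂ) g * (ζ : G → ℂ) h / (ζ : G → ℂ) 1) * conj ((ζ : G → ℂ) x) :=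
      Finset.sum_congr rfl fun ζ _ => by ring
    rw [h2, hsplit (fun ζ => (ζ : G → ℂ) g * (ζ : G → ℂ) h / (ζ : G → ℂ) 1)] at h1
    simp only [dg_spec, dχ, dψ, dg_one, oneIrr_apply] at h1
    rw [Finset.sum_congr rfl (fun ζ hζ => by rw [dE ζ hζ, hag g hg ζ hζ, hag h hh ζ hζ]), ← Finset.mul_sum, hS] at h1
    push_cast at h1
    linear_combination -h1
  · intro t ht
    have h0 : Nat.card {q : G × G // IsConj t q.1 ∧ IsConj t q.2 ∧ q.1 * q.2 = x} = 0 := by
      have : IsEmpty {q : G × G // IsConj t q.1 ∧ IsConj t q.2 ∧ q.1 * q.2 = x} := by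
        refine ⟨fun q => ?_⟩
        obtain ⟨⟨a, b⟩, ha, hb, hab⟩ := q
        simp only at ha hb hab
        have hord : ∀ c : G, IsConj t c → orderOf c = 2 := by
          intro c hc
          obtain ⟨s, hs⟩ := isConj_iff.1 hc
          rw [← hs, ← ht]
          exact MulEquiv.orderOf_eq (MulAut.conj s) t
        have ha2 := hord a ha
        have hb2 := hord b hb
        have haa : a * a = 1 := by rw [← sq, ← ha2, pow_orderOf_eq_one]
        have hbb : b * b = 1 := by rw [← sq, ← hb2, pow_orderOf_eq_one]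
        have hai : a⁻¹ = a := inv_eq_of_mul_eq_one_right haa
        have hbi : b⁻¹ = b := inv_eq_of_mul_eq_one_right hbb
        have h1 : a * x * a⁻¹ ∈ T := by
          have : a * x * a⁻¹ = x⁻¹ := by
            rw [← hab, mul_inv_rev, hai, hbi, ← mul_assoc, haa, one_mul]
          rw [this]
          exact T.inv_mem hxT
        have h2 := hT.mem_norm hxT hx1 h1
        have h3 := Subgroup.orderOf_dvd_natCard _ h2
        rw [hT.norm, hTc, ha2] at h3
        norm_num at h3
      exact Nat.card_of_isEmpty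
    have ht1 : orderOf t ≠ 13 := by rw [ht]; norm_num
    have h1 := class_const t t x
    rw [h0, hG] at h1
    have h2 : ∑ ζ : IrrCharacter G, (ζ : G → ℂ) t * (ζ : G → ℂ) t * conj ((ζ : G → ℂ) x) / (ζ : G → ℂ) 1 =
        ∑ ζ : IrrCharacter G, ((ζ : G → ℂ) t * (ζ : G → ℂ) t / (ζ : G → ℂ) 1) * conj ((ζ : G → ℂ) x) :=
      Finset.sum_congr rfl fun ζ _ => by ring
    rw [h2, hsplit (fun ζ => (ζ : G → ℂ) t * (ζ : G → ℂ) t / (ζ : G → ℂ) 1)] at h1
    simp only [dg_spec, dχ, dψ, dg_one, oneIrr_apply] at h1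
    rw [Finset.sum_congr rfl (fun ζ hζ => by rw [dE ζ hζ, hag t ht1 ζ hζ]), ← Finset.mul_sum, hS] at h1
    push_cast at h1
    linear_combination h1 / 5616
  · intro g hg
    -- the Sylow 13-subgroups are conjugate
    have hfac : Nat.factorization 5616 13 = 1 := by
      rw [show (5616 : ℕ) = 13 * 432 by norm_num, Nat.factorization_mul (by norm_num) (by norm_num),
        Finsupp.add_apply, Nat.Prime.factorization_self (by norm_num),
        Nat.factorization_eq_zero_of_not_dvd (by norm_num)]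
    have hP : ∀ y : G, orderOf y = 13 → ∃ P : Sylow 13 G, (P : Subgroup G) = Subgroup.zpowers y := by
      intro y hy
      refine ⟨Sylow.ofCard (Subgroup.zpowers y) ?_, rfl⟩
      rw [Nat.card_zpowers, hy, hG, hfac, pow_one]
    obtain ⟨P, hPg⟩ := hP g hg
    obtain ⟨Q, hQx⟩ := hP x hx13
    obtain ⟨s, hs⟩ := MulAction.exists_smul_eq G P Q
    have h1 : s * g * s⁻¹ ∈ Subgroup.zpowers x := by
      rw [← hQx, ← hs, Sylow.coe_subgroup_smul, hPg]
      exact Subgroup.smul_mem_pointwise_smul g (MulAut.conj s) _ (Subgroup.mem_zpowers g)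
    have hzT : Subgroup.zpowers x ≤ T := by rw [Subgroup.zpowers_le]; exact hxT
    have h2 : s * g * s⁻¹ ≠ 1 := by
      intro e
      have h3 := MulEquiv.orderOf_eq (MulAut.conj s) g
      rw [MulAut.conj_apply, e, orderOf_one, hg] at h3
      omega
    have h4 := hT.cent _ (hzT h1) h2
    rw [← hTc, ← h4]
    exact Nat.card_congr
      { toFun := fun c => ⟨s * c.1 * s⁻¹, by
          have := Subgroup.mem_centralizer_singleton_iff.1 c.2
          rw [Subgroup.mem_centralizer_singleton_iff]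
          calc s * c.1 * s⁻¹ * (s * g * s⁻¹) = s * (c.1 * g) * s⁻¹ := by group
            _ = s * (g * c.1) * s⁻¹ := by rw [this]
            _ = s * g * s⁻¹ * (s * c.1 * s⁻¹) := by group⟩
        invFun := fun c => ⟨s⁻¹ * c.1 * s, by
          have := Subgroup.mem_centralizer_singleton_iff.1 c.2
          rw [Subgroup.mem_centralizer_singleton_iff]
          calc s⁻¹ * c.1 * s * g = s⁻¹ * (c.1 * (s * g * s⁻¹)) * s := by group
            _ = s⁻¹ * ((s * g * s⁻¹) * c.1) * s := by rw [this]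
            _ = g * (s⁻¹ * c.1 * s) := by group⟩
        left_inv := fun c => Subtype.ext (by show s⁻¹ * (s * c.1 * s⁻¹) * s = c.1; group)
        right_inv := fun c => Subtype.ext (by show s * (s⁻¹ * c.1 * s) * s⁻¹ = c.1; group) }

end Cfsg.Agent.C2Ab.L33D
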