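import Cfsg.Agent.CharBase.Ortho
import Cfsg.Agent.Char.Linear

/-! S2755, piece CD: the parts of `χ` on `⟨t⟩ × H` for a linear character. -/

set_option autoImplicit false

namespace Cfsg.Agent.C2Ab.RtCD

open Cfsg Cfsg.Agent
open scoped ComplexConjugate

theorem nat_of_hom {H : Type*} [Group H] [Fintype H] {χ : H → ℂ} (hχ : IsCharacter H χ)
    (ψ : H →* ℂ) : ∃ n : ℕ, ∑ h : H, χ h * ψ h⁻¹ = (n : ℂ) * (Nat.card H : ℂ) := by
  have hcard : (Nat.card H : ℂ) ≠ 0 := by exact_mod_cast Nat.card_pos.ne'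
  -- the linear character as a character
  have hψ : IsCharacter H (ψ : H → ℂ) := Char.isCharacter_of_hom ψ
  obtain ⟨n, hn⟩ := CharBase.classInner_natCast hχ hψ
  refine ⟨n, ?_⟩
  rw [← hn, classInner]
  have : ∀ h : H, conj (ψ h) = ψ h⁻¹ := by
    intro h
    exact (CharBase.isCharacter_inv hψ h).symm
  simp only [this]
  field_simp

/-- the homomorphism `H × ℤˣ → G`, `-1 ↦ t` -/
def ext {G : Type*} [Group G] {t : G} (t2 : t * t = 1) {H : Type*} [Group H] (f : H →* G)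
    (hf : ∀ h : H, t * f h = f h * t) : H × ℤˣ →* G :=
  MonoidHom.mk' (fun x => f x.1 * (if x.2 = 1 then 1 else t)) (by
    rintro ⟨h, u⟩ ⟨h', u'⟩
    rcases Int.units_eq_one_or u with rfl | rfl <;> rcases Int.units_eq_one_or u' with rfl | rfl
    · simp
    · simp [mul_assoc]
    · simp [mul_assoc, hf]
    · have h1 : f h * t * (f h' * t) = f h * f h' * (t * t) := by
        rw [mul_assoc, ← mul_assoc t, hf h']; group
      simp [h1, t2])

/-- [CD] -/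
theorem exists_nat_parts {G : Type*} [Group G] [Fintype G] {χ : G → ℂ} (hχ : IsCharacter G χ)
    {t : G} (t2 : t * t = 1) {H : Type*} [Group H] [Fintype H] (f : H →* G)
    (hf : ∀ h : H, t * f h = f h * t) (ψ : H →* ℂ) :
    ∃ a b : ℕ, ∑ h : H, χ (f h) * ψ h⁻¹ = ((a : ℂ) + b) * (Nat.card H : ℂ) ∧
      ∑ h : H, χ (t * f h) * ψ h⁻¹ = ((a : ℂ) - b) * (Nat.card H : ℂ) := by
  classical
  have hc : IsCharacter (H × ℤˣ) (fun x => χ (ext t2 f hf x)) := CharBase.isCharacter_comp hχ _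
  let ψ1 : H × ℤˣ →* ℂ := ψ.comp (MonoidHom.fst H ℤˣ)
  let ψ2 : H × ℤˣ →* ℂ := ψ1 * ((Int.castRingHom ℂ : ℤ →* ℂ).comp ((Units.coeHom ℤ).comp
    (MonoidHom.snd H ℤˣ)))
  obtain ⟨a, ha⟩ := nat_of_hom hc ψ1
  obtain ⟨b, hb⟩ := nat_of_hom hc ψ2
  have hcard : (Nat.card (H × ℤˣ) : ℂ) = 2 * (Nat.card H : ℂ) := by
    rw [Nat.card_prod]
    simp [mul_comm]
  have hne : (1 : ℤˣ) ≠ -1 := by decide
  have hne' : (-1 : ℤˣ) ≠ 1 := by decide
  have e1 : ∑ x : H × ℤˣ, χ (ext t2 f hf x) * ψ1 x⁻¹ =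
      ∑ h : H, χ (f h) * ψ h⁻¹ + ∑ h : H, χ (t * f h) * ψ h⁻¹ := by
    rw [Fintype.sum_prod_type, ← Finset.sum_add_distrib]
    refine Finset.sum_congr rfl fun h _ => ?_
    rw [show (Finset.univ : Finset ℤˣ) = {1, -1} from rfl, Finset.sum_pair hne]
    simp [ext, ψ1, hne', hf]
  have e2 : ∑ x : H × ℤˣ, χ (ext t2 f hf x) * ψ2 x⁻¹ =
      ∑ h : H, χ (f h) * ψ h⁻¹ - ∑ h : H, χ (t * f h) * ψ h⁻¹ := by
    rw [Fintype.sum_prod_type, ← Finset.sum_sub_distrib]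
    refine Finset.sum_congr rfl fun h _ => ?_
    rw [show (Finset.univ : Finset ℤˣ) = {1, -1} from rfl, Finset.sum_pair hne]
    simp [ext, ψ1, ψ2, hne', hf]
    ring
  refine ⟨a, b, ?_, ?_⟩
  · rw [e1, hcard] at ha
    rw [e2, hcard] at hb
    linear_combination (ha + hb) / 2
  · rw [e1, hcard] at ha
    rw [e2, hcard] at hb
    linear_combination (ha - hb) / 2

end Cfsg.Agent.C2Ab.RtCD
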